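import Mathlib

/-!
Orders of subgroups built by adjoining a normalising element, for small Sylow subgroups.
-/

set_option autoImplicit false

namespace Cfsg.Agent.Lib.SchurMult

open Subgroup
open scoped Pointwise

variable {G : Type*} [Group G]

/-- Adjoining a normalising element whose powers below the `n`-th avoid `H`. -/
theorem card_sup_zpowers (H : Subgroup G) [Finite H] (x : G) {n : ℕ} (hn : 0 < n)
    (hx : x ∈ normalizer (H : Set G)) (hxn : x ^ n = 1) (hfree : ∀ j, 0 < j → j < n → x ^ j ∉ H) :
    Nat.card (H ⊔ zpowers x : Subgroup G) = Nat.card H * n := by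
  let f : H × Fin n → (H ⊔ zpowers x : Subgroup G) := fun p =>
    ⟨(p.1 : G) * x ^ (p.2 : ℕ),
      mul_mem (mem_sup_left p.1.2) (mem_sup_right (pow_mem (mem_zpowers x) _))⟩
  have hinj : Function.Injective f := by
    rintro ⟨a, i⟩ ⟨b, j⟩ hab
    have h : (a : G) * x ^ (i : ℕ) = (b : G) * x ^ (j : ℕ) := congrArg Subtype.val hab
    have key : ∀ (a b : H) (i j : Fin n), (i : ℕ) ≤ j →
        (a : G) * x ^ (i : ℕ) = (b : G) * x ^ (j : ℕ) → (i : ℕ) = j := by
      intro a b i j hij e
      by_contra hne
      refine hfree ((j : ℕ) - i) (by omega) (by omega) ?_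
      have : x ^ ((j : ℕ) - i) = (b : G)⁻¹ * a := by
        rw [pow_sub x hij, eq_inv_mul_iff_mul_eq, ← mul_assoc, mul_inv_eq_iff_eq_mul]
        exact e.symm
      rw [this]
      exact mul_mem (inv_mem b.2) a.2
    have hij : (i : ℕ) = j := by
      rcases le_total (i : ℕ) j with h' | h'
      · exact key a b i j h' h
      · exact (key b a j i h' h.symm).symm
    rw [hij] at h
    exact Prod.ext (Subtype.ext (mul_right_cancel h)) (Fin.ext hij)
  have hsurj : Function.Surjective f := by
    intro y
    have hy : (y : G) ∈ ((H : Set G) * (zpowers x : Set G)) := by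
      rw [← coe_mul_of_right_le_normalizer_left H (zpowers x) (zpowers_le.2 hx)]
      exact y.2
    obtain ⟨a, ha, b, hb, hab⟩ := hy
    obtain ⟨k, rfl⟩ := mem_zpowers_iff.1 hb
    refine ⟨(⟨a, ha⟩, ⟨(k % n).toNat, by
      have := Int.emod_lt_of_pos k (b := n) (by omega)
      have := Int.emod_nonneg k (b := n) (by omega)
      omega⟩), Subtype.ext ?_⟩
    show a * x ^ ((k % (n : ℤ)).toNat) = y
    rw [← zpow_natCast x, Int.toNat_of_nonneg (Int.emod_nonneg k (by omega)),
      show x ^ (k % (n : ℤ)) = x ^ k by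
        conv_rhs => rw [← Int.emod_add_mul_ediv k (n : ℤ), zpow_add, zpow_mul, zpow_natCast, hxn,
          one_zpow, mul_one]]
    exact hab
  rw [← Nat.card_eq_of_bijective f ⟨hinj, hsurj⟩, Nat.card_prod, Nat.card_fin]

end Cfsg.Agent.Lib.SchurMult
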