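import Cfsg.Agent.Lib.SchurMult.Sylow
import Cfsg.Agent.Lib.Classical.SLTwoSylow
import Cfsg.Agent.Lib.Classical.Order
import Cfsg.Agent.Lib.Recog.SLTwo
import Cfsg.Agent.Lib.UniqueInvolution
import Cfsg.Agent.S3963

/-!
The Schur multiplier of `SL(2, q)` is trivial for `q ≠ 4, 9`.
-/

set_option autoImplicit false

namespace Cfsg.Agent.Lib.SchurMult.SLTwo

open Matrix
open scoped commutatorElement MatrixGroups

section Algebra

variable {F : Type*} [Field F] [Fintype F] {C : Type*} [CommGroup C]

/-- An alternating biadditive map on a prime field vanishes; with torus invariance this holds for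
every finite field of order different from `4` and `9`. -/
theorem alt_eq_one {p : ℕ} [hp : Fact p.Prime] [CharP F p] (h4 : Fintype.card F ≠ 4)
    (h9 : Fintype.card F ≠ 9) (c : F → F → C)
    (hl : ∀ s s' t, c (s + s') t = c s t * c s' t) (hanti : ∀ s t, c t s = (c s t)⁻¹)
    (halt : ∀ s, c s s = 1)
    (hinv : ∀ a : F, a ≠ 0 → ∀ s t, c (a ^ 2 * s) (a ^ 2 * t) = c s t) :
    ∀ s t, c s t = 1 := by
  classical
  have hr : ∀ s t t', c s (t + t') = c s t * c s t' := by
    intro s t t'
    rw [hanti (t + t') s, hl, mul_inv, ← hanti, ← hanti]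
  have h0l : ∀ t, c 0 t = 1 := fun t => by
    have := hl 0 0 t
    rw [add_zero] at this
    exact left_eq_mul.1 this
  have hnegl : ∀ s t, c (-s) t = (c s t)⁻¹ := fun s t => by
    refine eq_inv_of_mul_eq_one_left ?_
    rw [← hl, neg_add_cancel, h0l]
  have hnegr : ∀ s t, c s (-t) = (c s t)⁻¹ := fun s t => by
    rw [hanti (-t) s, hnegl, ← hanti]
  have hnat : ∀ (n : ℕ) (s t : F), c (n * s) t = c s t ^ n := by
    intro n s t
    induction n with
    | zero => simp [h0l]
    | succ n ih => rw [Nat.cast_succ, add_mul, one_mul, hl, ih, pow_succ]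
  -- the radical is zero or everything
  by_contra hne
  push Not at hne
  obtain ⟨s₀, t₀, hst⟩ := hne
  have hsub : ∀ (P : F → Prop), P 1 → (∀ x y, P x → P y → P (x + y)) → (∀ x, P x → P (-x)) →
      (∀ x y, P x → P y → P (x * y)) → (∀ a : F, a ≠ 0 → P (a ^ 2)) → ∀ x, P x := by
    intro P h1 hadd hneg hmul hsq x
    have h0 : P 0 := by simpa using hadd 1 (-1) h1 (hneg 1 h1)
    have hsq' : ∀ a : F, P (a ^ 2) := fun a => by
      rcases eq_or_ne a 0 with rfl | ha
      · simpa using h0
      · exact hsq a ha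
    by_cases h2 : (2 : F) = 0
    · haveI : CharP F 2 := by
        have hd : p ∣ 2 := (CharP.cast_eq_zero_iff F p 2).1 (by exact_mod_cast h2)
        rwa [← (Nat.prime_dvd_prime_iff_eq hp.out Nat.prime_two).1 hd]
      obtain ⟨a, ha⟩ := FiniteField.isSquare_of_char_two (ringChar.eq F 2 ▸ rfl) x
      rw [ha, ← pow_two]
      exact hsq' a
    · -- `x = ((x+1)^2 - x^2 - 1) * (1/2)` with `1/2` a natural number
      have hnatP : ∀ n : ℕ, P (n : F) := fun n => by
        induction n with
        | zero => simpa using h0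
        | succ n ih => rw [Nat.cast_succ]; exact hadd _ _ ih h1
      have hhalf : ∃ n : ℕ, (2 : F) * n = 1 := by
        have hodd : Odd p := hp.out.odd_of_ne_two fun e => h2 (by
          subst e; exact_mod_cast (CharP.cast_eq_zero F 2))
        obtain ⟨k, hk⟩ := hodd
        refine ⟨k + 1, ?_⟩
        have := CharP.cast_eq_zero F p
        rw [hk] at this
        push_cast at this ⊢
        linear_combination this
      obtain ⟨n, hn⟩ := hhalf
      have : x = ((x + 1) ^ 2 + -(x ^ 2) + -1) * (n : F) := by linear_combination (-x) * hn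
      rw [this]
      exact hmul _ _ (hadd _ _ (hadd _ _ (hsq' _) (hneg _ (hsq' _))) (hneg _ h1)) (hnatP n)
  have hnd : ∀ s, (∀ t, c s t = 1) → s = 0 := by
    intro s hs
    by_contra hs0
    have hall : ∀ x, ∀ r, (∀ t, c r t = 1) → ∀ t, c (x * r) t = 1 := by
      refine hsub (fun x => ∀ r, (∀ t, c r t = 1) → ∀ t, c (x * r) t = 1) ?_ ?_ ?_ ?_ ?_
      · intro r hr' t; rw [one_mul, hr']
      · intro x y hx hy r hr' t; rw [add_mul, hl, hx r hr', hy r hr', one_mul]
      · intro x hx r hr' t; rw [neg_mul, hnegl, hx r hr', inv_one]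
      · intro x y hx hy r hr' t; rw [mul_assoc]; exact hx _ (hy r hr') t
      · intro a ha r hr' t
        have h1 := hinv a ha r ((a ^ 2)⁻¹ * t)
        rw [mul_inv_cancel_left₀ (pow_ne_zero 2 ha), hr'] at h1
        exact h1
    refine hst ?_
    have := hall (s₀ * s⁻¹) s hs t₀
    rwa [inv_mul_cancel_right₀ hs0] at this
  -- the adjoint
  let T : F → F → Prop := fun l m => ∀ s t, c (l * s) t = c s (m * t)
  have hTsq : ∀ a : F, a ≠ 0 → T (a ^ 2) (a ^ 2)⁻¹ := fun a ha s t => by
    have h1 := hinv a ha s ((a ^ 2)⁻¹ * t)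
    rwa [mul_inv_cancel_left₀ (pow_ne_zero 2 ha)] at h1
  have hT1 : T 1 1 := fun s t => by rw [one_mul, one_mul]
  have hTadd : ∀ {l m l' m'}, T l m → T l' m' → T (l + l') (m + m') := fun h h' s t => by
    rw [add_mul, hl, h, h', add_mul, hr]
  have hTneg : ∀ {l m}, T l m → T (-l) (-m) := fun h s t => by
    rw [neg_mul, hnegl, h, neg_mul, hnegr]
  have hTmul : ∀ {l m l' m'}, T l m → T l' m' → T (l * l') (m * m') := fun {l m l' m'} h h' s t => by
    rw [mul_assoc, h, h', show m * m' * t = m' * (m * t) by ring]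
  have hex : ∀ l, ∃ m, T l m := hsub (fun l => ∃ m, T l m) ⟨1, hT1⟩
    (fun x y ⟨m, hm⟩ ⟨m', hm'⟩ => ⟨_, hTadd hm hm'⟩) (fun x ⟨m, hm⟩ => ⟨_, hTneg hm⟩)
    (fun x y ⟨m, hm⟩ ⟨m', hm'⟩ => ⟨_, hTmul hm hm'⟩) (fun a ha => ⟨_, hTsq a ha⟩)
  have huniq : ∀ {l m m'}, T l m → T l m' → m = m' := by
    intro l m m' h h'
    have h1 : ∀ t, (m - m') * t = 0 := fun t => by
      refine hnd _ fun s => ?_
      rw [sub_mul, sub_eq_add_neg, hl, hnegl, hanti s, hanti s (m' * t), ← h s t, ← h' s t,
        inv_inv, inv_mul_cancel]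
    simpa [sub_eq_zero] using h1 1
  choose τ hτ using hex
  have hτsq : ∀ a : F, a ≠ 0 → τ (a ^ 2) = (a ^ 2)⁻¹ := fun a ha => huniq (hτ _) (hTsq a ha)
  have hτadd : ∀ x y, τ (x + y) = τ x + τ y := fun x y => huniq (hτ _) (hTadd (hτ x) (hτ y))
  have hτmul : ∀ x y, τ (x * y) = τ x * τ y := fun x y => huniq (hτ _) (hTmul (hτ x) (hτ y))
  have hτ1 : τ 1 = 1 := huniq (hτ 1) hT1
  -- few elements
  have hcard : Fintype.card F ≤ 10 ∧ ((2 : F) = 0 → Fintype.card F ≤ 4) := by
    constructor
    · let S : Finset F := (({0, -1} : Finset F) ∪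
        ((Polynomial.X ^ 2 + Polynomial.X + 1 : Polynomial F).roots.toFinset ∪
        (Polynomial.X ^ 2 + Polynomial.C 3 * Polynomial.X + 1 : Polynomial F).roots.toFinset ∪
        (Polynomial.X ^ 2 - Polynomial.X - 1 : Polynomial F).roots.toFinset ∪
        (Polynomial.X ^ 2 + Polynomial.X - 1 : Polynomial F).roots.toFinset))
      have hS : ∀ x : F, x ∈ S := by
        intro x
        simp only [S, Finset.mem_union, Finset.mem_insert, Finset.mem_singleton, Multiset.mem_toFinset]
        by_cases hx : x = 0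
        · exact Or.inl (Or.inl hx)
        by_cases hx1 : x = -1
        · exact Or.inl (Or.inr hx1)
        refine Or.inr ?_
        have hx1' : x + 1 ≠ 0 := fun h => hx1 (eq_neg_of_add_eq_zero_left h)
        set y := τ x * x with hy
        have hy2 : y * y = 1 := by
          rw [hy, mul_mul_mul_comm, ← hτmul, ← pow_two, hτsq x hx,
            inv_mul_cancel₀ (pow_ne_zero 2 hx)]
        have hx2 : (τ x + 1) * (τ x + 1) * ((x + 1) * (x + 1)) = 1 := by
          have h := hτsq _ hx1'
          rw [pow_two, hτmul, hτadd, hτ1] at h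
          rw [h, inv_mul_cancel₀ (mul_ne_zero hx1' hx1')]
        rcases mul_self_eq_one_iff.1 hy2 with h | h
        · -- `τ x = 1/x`
          have e : ((x + 1) * (x + 1) - x) * ((x + 1) * (x + 1) + x) = 0 := by
            linear_combination (x * x) * hx2 - ((x + 1) * (x + 1)) * (y + 1 + 2 * x) * h
          rcases mul_eq_zero.1 e with e | e
          · exact Or.inl (Or.inl (Or.inl ((Polynomial.mem_roots').2
              ⟨by intro h0; simpa [Polynomial.coeff_X, Polynomial.coeff_one] using congrArg (fun q => Polynomial.coeff q 2) h0,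
               by simp [Polynomial.IsRoot]; linear_combination e⟩)))
          · exact Or.inl (Or.inl (Or.inr ((Polynomial.mem_roots').2
              ⟨by intro h0; simpa [Polynomial.coeff_X, Polynomial.coeff_one] using congrArg (fun q => Polynomial.coeff q 2) h0,
               by simp [Polynomial.IsRoot]; linear_combination e⟩)))
        · -- `τ x = -1/x`
          have e : ((x + 1) * (x - 1) - x) * ((x + 1) * (x - 1) + x) = 0 := by
            linear_combination (x * x) * hx2 - ((x + 1) * (x + 1)) * (y - 1 + 2 * x) * h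
          rcases mul_eq_zero.1 e with e | e
          · exact Or.inl (Or.inr ((Polynomial.mem_roots').2
              ⟨by intro h0; simpa [Polynomial.coeff_X, Polynomial.coeff_one] using congrArg (fun q => Polynomial.coeff q 2) h0,
               by simp [Polynomial.IsRoot]; linear_combination e⟩))
          · exact Or.inr ((Polynomial.mem_roots').2
              ⟨by intro h0; simpa [Polynomial.coeff_X, Polynomial.coeff_one] using congrArg (fun q => Polynomial.coeff q 2) h0,
               by simp [Polynomial.IsRoot]; linear_combination e⟩)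
      have hdeg : ∀ q : Polynomial F, q.natDegree ≤ 2 → q.roots.toFinset.card ≤ 2 := fun q hq =>
        (Multiset.toFinset_card_le _).trans ((Polynomial.card_roots' q).trans hq)
      calc Fintype.card F ≤ S.card := Finset.card_le_card (s := Finset.univ) fun x _ => hS x
        _ ≤ 2 + (2 + 2 + 2 + 2) := by
          refine (Finset.card_union_le _ _).trans (add_le_add Finset.card_le_two ?_)
          refine (Finset.card_union_le _ _).trans (add_le_add ?_ (hdeg _ (by compute_degree)))
          refine (Finset.card_union_le _ _).trans (add_le_add ?_ (hdeg _ (by compute_degree)))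
          exact (Finset.card_union_le _ _).trans
            (add_le_add (hdeg _ (by compute_degree)) (hdeg _ (by compute_degree)))
        _ = 10 := rfl
    · intro h2
      let S : Finset F := ({0, 1} : Finset F) ∪
        (Polynomial.X ^ 2 + Polynomial.X + 1 : Polynomial F).roots.toFinset
      haveI : CharP F 2 := by
        have hd : p ∣ 2 := (CharP.cast_eq_zero_iff F p 2).1 (by exact_mod_cast h2)
        rwa [← (Nat.prime_dvd_prime_iff_eq hp.out Nat.prime_two).1 hd]
      have hinv' : ∀ x : F, x ≠ 0 → τ x = x⁻¹ := by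
        intro x hx
        obtain ⟨a, ha⟩ := FiniteField.isSquare_of_char_two (ringChar.eq F 2 ▸ rfl) x
        rw [ha, ← pow_two]
        exact hτsq a fun h => hx (by rw [ha, h, mul_zero])
      have hS : ∀ x : F, x ∈ S := by
        intro x
        simp only [S, Finset.mem_union, Finset.mem_insert, Finset.mem_singleton, Multiset.mem_toFinset]
        by_cases hx : x = 0
        · exact Or.inl (Or.inl hx)
        by_cases hx1 : x = 1
        · exact Or.inl (Or.inr hx1)
        refine Or.inr ?_
        have hx1' : x + 1 ≠ 0 := fun h => hx1 (by linear_combination h - h2)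
        have e := hτadd x 1
        rw [hτ1, hinv' x hx, hinv' _ hx1'] at e
        field_simp at e
        refine (Polynomial.mem_roots').2
          ⟨by intro h0; simpa [Polynomial.coeff_X, Polynomial.coeff_one] using congrArg (fun q => Polynomial.coeff q 2) h0,
           by simp [Polynomial.IsRoot]; linear_combination -e⟩
      calc Fintype.card F ≤ S.card := Finset.card_le_card (s := Finset.univ) fun x _ => hS x
        _ ≤ 2 + 2 := (Finset.card_union_le _ _).trans (add_le_add Finset.card_le_two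
            ((Multiset.toFinset_card_le _).trans ((Polynomial.card_roots' _).trans (by compute_degree))))
  obtain ⟨n, -, hq⟩ := FiniteField.card F p
  by_cases hn : (n : ℕ) = 1
  · -- the prime field
    rw [hn, pow_one] at hq
    have hsurj : ∀ x : F, ∃ m : ℕ, (m : F) = x := by
      intro x
      have hb : Function.Bijective (ZMod.castHom (dvd_refl p) F) :=
        (Fintype.bijective_iff_injective_and_card _).2
          ⟨RingHom.injective _, by rw [ZMod.card, hq]⟩
      obtain ⟨y, rfl⟩ := hb.2 x
      exact ⟨y.val, by rw [ZMod.castHom_apply, ZMod.natCast_val]⟩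
    obtain ⟨m, rfl⟩ := hsurj s₀
    obtain ⟨m', rfl⟩ := hsurj t₀
    refine hst ?_
    rw [← mul_one (m : F), hnat, hanti (m' : F) 1, ← mul_one (m' : F), hnat, halt,
      one_pow, inv_one, one_pow]
  · have hn2 : 2 ≤ (n : ℕ) := by have := n.pos; omega
    have hp3 : p ≤ 3 := by
      by_contra! h
      have : 4 ^ 2 ≤ p ^ (n : ℕ) := (Nat.pow_le_pow_left h 2).trans (Nat.pow_le_pow_right hp.out.pos hn2)
      omega
    rcases (by have := hp.out.two_le; omega : p = 2 ∨ p = 3) with rfl | rfl
    · have h8 := hcard.2 (by exact_mod_cast CharP.cast_eq_zero F 2)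
      have : (n : ℕ) ≤ 2 := by
        by_contra! h
        have := Nat.pow_le_pow_right (show 0 < 2 by norm_num) h
        omega
      exact h4 (by rw [hq, show (n : ℕ) = 2 by omega]; norm_num)
    · have : (n : ℕ) ≤ 2 := by
        by_contra! h
        have := Nat.pow_le_pow_right (show 0 < 3 by norm_num) h
        omega
      exact h9 (by rw [hq, show (n : ℕ) = 2 by omega]; norm_num)

end Algebra

section Cyclic

variable {F : Type*} [Field F] [Finite F] {p : ℕ} [Fact p.Prime] [CharP F p]

theorem eq_one_of_fixed {K : Type*} [Field K] [CharP K p] (M : SL(2, K)) (v : Fin 2 → K) (hv : v ≠ 0)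
    (h : (M : Matrix (Fin 2) (Fin 2) K) *ᵥ v = v) {r : ℕ} (hr : r.Coprime p) (hM : M ^ r = 1) :
    M = 1 := by
  set A := (M : Matrix (Fin 2) (Fin 2) K)
  have ht := Cfsg.Agent.Lib.Recog.sl2_trace_of_fixed M v hv h
  have h1 : (A - 1) ^ 2 = 0 := by
    rw [pow_two, sub_mul, mul_sub, one_mul, mul_one, Cfsg.Agent.Lib.Recog.sl2_mul_self M, ht, two_smul]
    abel
  have h2 : A ^ p = 1 := by
    have := sub_pow_char_of_commute (p := p) (Commute.one_right A)
    rw [one_pow] at this
    have h3 : (A - 1) ^ p = 0 := pow_eq_zero_of_le (Fact.out : p.Prime).two_le h1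
    rw [h3] at this
    exact sub_eq_zero.1 this.symm
  have h4 : M ^ p = 1 := Subtype.ext (by rw [Matrix.SpecialLinearGroup.coe_pow]; exact h2)
  have h5 : M ^ Nat.gcd r p = 1 := pow_gcd_eq_one.2 ⟨hM, h4⟩
  rwa [hr.gcd_eq_one, pow_one] at h5

/-- Odd `r`-subgroups of `SL(2, F)` in coprime characteristic are cyclic. -/
theorem isCyclic_odd {r : ℕ} [hr : Fact r.Prime] (hr2 : r ≠ 2) (hrp : r ≠ p)
    (P : Subgroup SL(2, F)) (hP : IsPGroup r P) : IsCyclic P := by
  rcases eq_or_ne P ⊥ with rfl | hne
  · infer_instance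
  haveI : Nontrivial P := (Subgroup.nontrivial_iff_ne_bot P).2 hne
  haveI := hP.center_nontrivial
  obtain ⟨z, hz⟩ := exists_prime_orderOf_dvd_card' r (G := Subgroup.center P) (by
    obtain ⟨m, hm⟩ := IsPGroup.iff_card.1 (hP.to_subgroup (Subgroup.center P))
    rw [hm]
    refine dvd_pow_self r fun h0 => ?_
    have : 1 < Nat.card (Subgroup.center P) := Finite.one_lt_card_iff_nontrivial.2 inferInstance
    rw [hm, h0, pow_zero] at this
    omega)
  have hzo : orderOf ((z : P) : SL(2, F)) = r := by rw [Subgroup.orderOf_coe, Subgroup.orderOf_coe, hz]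
  have hcop : r.Coprime p := (Nat.coprime_primes hr.out (Fact.out : p.Prime)).2 hrp
  let K := AlgebraicClosure F
  haveI : CharP K p := charP_of_injective_algebraMap (algebraMap F K).injective p
  let f : SL(2, F) →* SL(2, K) := SpecialLinearGroup.map (algebraMap F K)
  have hf : Function.Injective f := by
    intro a b h
    ext i j
    exact (algebraMap F K).injective (congrFun (congrFun (congrArg Subtype.val h) i) j)
  set Z := (f ((z : P) : SL(2, F)) : Matrix (Fin 2) (Fin 2) K) with hZ
  obtain ⟨l, hl⟩ := Module.End.exists_eigenvalue (Matrix.toLin' Z)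
  obtain ⟨v, hv⟩ := hl.exists_hasEigenvector
  have hv0 : v ≠ 0 := hv.2
  have hZv : Z *ᵥ v = l • v := by
    rw [← Matrix.toLin'_apply]
    exact hv.apply_eq_smul
  have hpow : ∀ (k : ℕ), (Z ^ k) *ᵥ v = l ^ k • v := by
    intro k
    induction k with
    | zero => simp
    | succ k ih => rw [pow_succ, ← mulVec_mulVec, hZv, mulVec_smul, ih, smul_smul, pow_succ']
  have hZr : Z ^ r = 1 := by
    have h1 : f ((z : P) : SL(2, F)) ^ r = 1 := by rw [← map_pow, ← hzo, pow_orderOf_eq_one, map_one]
    exact congrArg Subtype.val h1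
  have hlr : l ^ r = 1 := by
    have := hpow r
    rw [hZr, one_mulVec] at this
    exact smul_left_injective K hv0 (this.symm.trans (one_smul K v).symm)
  have hl1 : l ≠ 1 := by
    rintro rfl
    rw [one_smul] at hZv
    have := eq_one_of_fixed (f ((z : P) : SL(2, F))) v hv0 hZv hcop
      (by rw [← map_pow, ← hzo, pow_orderOf_eq_one, map_one])
    rw [← map_one f] at this
    rw [hf this, orderOf_one] at hzo
    exact hr.out.ne_one hzo.symm
  have hprim : IsPrimitiveRoot l r :=
    IsPrimitiveRoot.iff_orderOf.2 (orderOf_eq_prime hlr hl1)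
  have key : ∀ w : P, w ^ r = 1 → w ∈ Subgroup.zpowers (z : P) := by
    intro w hw
    set W := (f (w : SL(2, F)) : Matrix (Fin 2) (Fin 2) K) with hW
    have hcomm : Z * W = W * Z := by
      have h1 : f ((z : P) : SL(2, F)) * f (w : SL(2, F)) = f (w : SL(2, F)) * f ((z : P) : SL(2, F)) := by
        rw [← map_mul, ← map_mul, ← Subgroup.coe_mul, ← Subgroup.coe_mul, Subgroup.mem_center_iff.1 z.2 w]
      exact congrArg Subtype.val h1
    set u := W *ᵥ v with hu
    have hZu : Z *ᵥ u = l • u := by
      rw [hu, mulVec_mulVec, hcomm, ← mulVec_mulVec, hZv, mulVec_smul]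
    obtain ⟨m, hm⟩ : ∃ m : K, u = m • v := by
      by_cases hd : v 0 * u 1 - v 1 * u 0 = 0
      · by_cases h0 : v 0 = 0
        · have h1 : v 1 ≠ 0 := fun h1 => hv0 (by funext i; fin_cases i <;> assumption)
          refine ⟨u 1 / v 1, ?_⟩
          refine funext (Fin.forall_fin_two.2 ⟨?_, ?_⟩)
          · have hu0 : u 0 = 0 := by
              rw [h0, zero_mul, zero_sub, neg_eq_zero] at hd
              exact (mul_eq_zero.1 hd).resolve_left h1
            simp [h0, hu0]
          · rw [Pi.smul_apply, smul_eq_mul, div_mul_cancel₀ _ h1]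
        · refine ⟨u 0 / v 0, ?_⟩
          refine funext (Fin.forall_fin_two.2 ⟨?_, ?_⟩)
          · rw [Pi.smul_apply, smul_eq_mul, div_mul_cancel₀ _ h0]
          · rw [Pi.smul_apply, smul_eq_mul, div_mul_eq_mul_div, eq_div_iff h0]
            linear_combination hd
      · exfalso
        have e := fun (x : Fin 2 → K) (i : Fin 2) (h : Z *ᵥ x = l • x) => congrFun h i
        have a0 := e v 0 hZv
        have a1 := e v 1 hZv
        have b0 := e u 0 hZu
        have b1 := e u 1 hZu
        simp only [mulVec, dotProduct, Fin.sum_univ_two, Pi.smul_apply, smul_eq_mul] at a0 a1 b0 b1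
        set d := v 0 * u 1 - v 1 * u 0 with hdd
        have e00 : Z 0 0 = l := by
          have : (Z 0 0 - l) * d = 0 := by rw [hdd]; linear_combination (u 1) * a0 - (v 1) * b0
          exact sub_eq_zero.1 ((mul_eq_zero.1 this).resolve_right hd)
        have e11 : Z 1 1 = l := by
          have : (Z 1 1 - l) * d = 0 := by rw [hdd]; linear_combination (v 0) * b1 - (u 0) * a1
          exact sub_eq_zero.1 ((mul_eq_zero.1 this).resolve_right hd)
        have e01 : Z 0 1 = 0 := by
          have : Z 0 1 * d = 0 := by rw [hdd]; linear_combination (v 0) * b0 - (u 0) * a0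
          exact (mul_eq_zero.1 this).resolve_right hd
        have hdet := (Matrix.det_fin_two Z).symm.trans (f ((z : P) : SL(2, F))).2
        rw [e00, e11, e01, zero_mul, sub_zero] at hdet
        have h2 : r ∣ 2 := hprim.pow_eq_one_iff_dvd 2 |>.1 (by rw [pow_two, hdet])
        exact hr2 ((Nat.prime_dvd_prime_iff_eq hr.out Nat.prime_two).1 h2)
    have hWp : ∀ k : ℕ, (W ^ k) *ᵥ v = m ^ k • v := by
      intro k
      induction k with
      | zero => simp
      | succ k ih => rw [pow_succ, ← mulVec_mulVec, ← hu, hm, mulVec_smul, ih, smul_smul, pow_succ']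
    have hmr : m ^ r = 1 := by
      have := hWp r
      have h1 : f (w : SL(2, F)) ^ r = 1 := by
        rw [← map_pow, ← Subgroup.coe_pow, hw, Subgroup.coe_one, map_one]
      have h2 : W ^ r = 1 := congrArg Subtype.val h1
      rw [h2, one_mulVec] at this
      exact smul_left_injective K hv0 (this.symm.trans (one_smul K v).symm)
    obtain ⟨i, hi, him⟩ := hprim.eq_pow_of_pow_eq_one hmr
    have hy : w * (z : P) ^ (r - i) = 1 := by
      refine Subtype.ext (hf ?_)
      rw [Subgroup.coe_one, map_one]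
      refine eq_one_of_fixed _ v hv0 ?_ hcop ?_
      · rw [Subgroup.coe_mul, Subgroup.coe_pow, map_mul, map_pow]
        change (W * Z ^ (r - i)) *ᵥ v = v
        rw [← mulVec_mulVec, hpow, mulVec_smul, ← hu, hm,
          smul_smul, ← him, ← pow_add, Nat.sub_add_cancel hi.le, hlr, one_smul]
      · rw [← map_pow, ← Subgroup.coe_pow, (show Commute w ((z : P) ^ (r - i)) from
          (show Commute w (z : P) from Subgroup.mem_center_iff.1 z.2 w).pow_right _).mul_pow, hw,
          one_mul, pow_right_comm, show (z : P) ^ r = 1 from Subtype.ext (by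
            rw [Subgroup.coe_pow, ← hzo, pow_orderOf_eq_one, Subgroup.coe_one]), one_pow,
          Subgroup.coe_one, map_one]
    rw [eq_inv_of_mul_eq_one_left hy]
    exact inv_mem (pow_mem (Subgroup.mem_zpowers _) _)
  have huniq : ∀ H K : Subgroup P, Nat.card H = r → Nat.card K = r → H = K := by
    intro H K hH hK
    have hzP : orderOf (z : P) = r := by rw [Subgroup.orderOf_coe, hz]
    have hzc : Nat.card (Subgroup.zpowers (z : P)) = r := (Nat.card_zpowers _).trans hzP
    have : ∀ H : Subgroup P, Nat.card H = r → H = Subgroup.zpowers (z : P) := fun H hH =>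
      Subgroup.eq_of_le_of_card_ge (fun w hw => key w (by
        have := pow_card_eq_one' (x := (⟨w, hw⟩ : H))
        rw [hH] at this
        exact congrArg Subtype.val this)) (by rw [hH, hzc])
    rw [this H hH, this K hK]
  rcases Cfsg.Agent.Lib.UniqueInvolution.isCyclic_or_quaternion hP huniq with h | h
  · exact h
  · exact absurd h.1 hr2

end Cyclic

section Main

variable {F : Type*} [Field F] [Fintype F]

/-- The upper unitriangular element. -/
def un (t : F) : SL(2, F) := ⟨!![1, t; 0, 1], by simp [det_fin_two]⟩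

theorem un_mul (s t : F) : un s * un t = un (s + t) := by
  refine Subtype.ext ?_
  change !![1, s; 0, 1] * !![1, t; 0, 1] = !![1, s + t; 0, 1]
  ext i j
  fin_cases i <;> fin_cases j <;> simp [Matrix.mul_apply, Fin.sum_univ_two, add_comm]

theorem un_inv (s : F) : (un s)⁻¹ = un (-s) :=
  inv_eq_of_mul_eq_one_right (by rw [un_mul, add_neg_cancel]; ext i j; fin_cases i <;> fin_cases j <;> simp [un])

/-- The upper unitriangular subgroup. -/
def unHom : Multiplicative F →* SL(2, F) :=
  MonoidHom.mk' (fun t => un (Multiplicative.toAdd t)) fun a b => by rw [un_mul]; rfl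

theorem unHom_injective : Function.Injective (unHom (F := F)) := fun a b h => by
  have h2 : (!![1, Multiplicative.toAdd a; 0, 1] : Matrix (Fin 2) (Fin 2) F) =
      !![1, Multiplicative.toAdd b; 0, 1] := congrArg Subtype.val h
  have := congrFun (congrFun h2 0) 1
  refine Multiplicative.toAdd.injective ?_
  simpa using this

/-- The diagonal torus element. -/
def tor (a : F) (ha : a ≠ 0) : SL(2, F) := ⟨!![a, 0; 0, a⁻¹], by simp [det_fin_two, ha]⟩

theorem tor_conj (a : F) (ha : a ≠ 0) (t : F) : tor a ha * un t = un (a ^ 2 * t) * tor a ha := by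
  refine Subtype.ext ?_
  change !![a, 0; 0, a⁻¹] * !![1, t; 0, 1] = !![1, a ^ 2 * t; 0, 1] * !![a, 0; 0, a⁻¹]
  ext i j
  fin_cases i <;> fin_cases j <;> simp [Matrix.mul_apply, Fin.sum_univ_two]
  field_simp

theorem commutator_central {Γ : Type*} [Group Γ] {x y x' y' : Γ} (hx : x⁻¹ * x' ∈ Subgroup.center Γ)
    (hy : y⁻¹ * y' ∈ Subgroup.center Γ) : ⁅x', y'⁆ = ⁅x, y⁆ := by
  rw [show x' = x * (x⁻¹ * x') by group, show y' = y * (y⁻¹ * y') by group]
  generalize x⁻¹ * x' = z at hx
  generalize y⁻¹ * y' = w at hy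
  rw [Subgroup.mem_center_iff] at hx hy
  rw [commutatorElement_def, commutatorElement_def, _root_.mul_inv_rev, _root_.mul_inv_rev]
  calc x * z * (y * w) * (z⁻¹ * x⁻¹) * (w⁻¹ * y⁻¹)
      = x * (z * (y * w) * z⁻¹) * (x⁻¹ * w⁻¹) * y⁻¹ := by group
    _ = x * (y * w) * (w⁻¹ * x⁻¹) * y⁻¹ := by
        rw [← hx (y * w), mul_inv_cancel_right, ← (Commute.inv_right (hy x⁻¹ : Commute x⁻¹ w)).eq]
    _ = x * y * x⁻¹ * y⁻¹ := by group

theorem hasTrivial (h4 : Fintype.card F ≠ 4) (h9 : Fintype.card F ≠ 9) :
    Cfsg.HasCyclicSchurMultiplier SL(2, F) 1 := by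
  classical
  refine hasTrivial_of_not_dvd fun Δ _ _ σ hσ r hr => ?_
  haveI := Fact.mk hr
  obtain ⟨p, hchar⟩ := CharP.exists F
  obtain ⟨n, hp, hq⟩ := FiniteField.card F p
  haveI := Fact.mk hp
  by_cases hrp : r = p
  swap
  · refine not_dvd_ker_of_sylow hσ fun Q E _ _ τ hτ => ?_
    by_cases hr2 : r = 2
    · subst hr2
      have hodd : Odd (Fintype.card F) := by
        rw [hq]
        exact (hp.odd_of_ne_two (Ne.symm hrp)).pow
      obtain ⟨k, -, ⟨e⟩⟩ := Cfsg.Agent.Lib.Classical.sl_two_sylow_quaternion hodd Q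
      haveI : NeZero (2 ^ k) := ⟨by positivity⟩
      exact stem_ker_eq_bot_of_equiv e (Cfsg.Agent.S3963.result (2 ^ k)) hτ
    · haveI := isCyclic_odd (p := p) hr2 hrp (Q : Subgroup SL(2, F)) Q.2
      exact stem_ker_eq_bot_of_isCyclic hτ
  subst hrp
  intro hdvd
  -- the Sylow `r`-subgroup `U`
  have hcardU : Nat.card (unHom (F := F)).range = r ^ (n : ℕ) := by
    rw [← Nat.card_congr (MonoidHom.ofInjective unHom_injective).toEquiv,
      Nat.card_congr (Multiplicative.toAdd (α := F)), Nat.card_eq_fintype_card, hq]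
  obtain ⟨P₀⟩ := (inferInstance : Nonempty (Sylow r Δ))
  set Q₀ := P₀.mapSurjective hσ.1
  have hU : (unHom (F := F)).range.index.Coprime r := by
    refine ((hr.coprime_iff_not_dvd).2 fun hd => ?_).symm
    have h1 := (unHom (F := F)).range.card_mul_index
    rw [hcardU, Cfsg.Agent.Lib.Classical.card_SL_two, ← hq] at h1
    have hqpos : 0 < Fintype.card F := Fintype.card_pos
    rw [Nat.eq_of_mul_eq_mul_left hqpos h1] at hd
    have h2 : r ∣ Fintype.card F ^ 2 := by
      rw [hq, ← pow_mul]; exact dvd_pow_self r (by have := n.pos; omega)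
    have h3 : 1 ≤ Fintype.card F ^ 2 := Nat.one_le_pow _ _ hqpos
    have := Nat.dvd_sub h2 hd
    rw [Nat.sub_sub_self h3] at this
    exact hr.one_lt.ne' (Nat.dvd_one.1 this)
  let U : Sylow r SL(2, F) := (IsPGroup.of_card hcardU).toSylow
    fun hd => hr.one_lt.ne' (Nat.eq_one_of_dvd_coprimes hU hd dvd_rfl)
  obtain ⟨g, hg⟩ := MulAction.exists_smul_eq SL(2, F) Q₀ U
  obtain ⟨g', rfl⟩ := hσ.1 g
  set P := g' • P₀ with hP
  have hmap : (P : Subgroup Δ).map σ = (unHom (F := F)).range := by
    have hU' : (U : Subgroup SL(2, F)) = (unHom (F := F)).range := rfl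
    rw [← hU', ← hg, hP, Sylow.coe_subgroup_smul, Sylow.coe_subgroup_smul,
      Subgroup.pointwise_smul_def, Subgroup.pointwise_smul_def]
    change _ = Subgroup.map _ ((P₀ : Subgroup Δ).map σ)
    ext y
    constructor
    · rintro ⟨_, ⟨x, hx, rfl⟩, rfl⟩
      refine ⟨σ x, Subgroup.mem_map_of_mem σ hx, ?_⟩
      simp [MulAut.smul_def]
    · rintro ⟨_, ⟨x, hx, rfl⟩, rfl⟩
      refine ⟨g' * x * g'⁻¹, ⟨x, hx, by simp [MulAut.smul_def]⟩, ?_⟩
      simp [MulAut.smul_def]
  -- lifts
  choose L hL using fun t : F => hσ.1 (un t)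
  have hker : ∀ x y : Δ, σ x = σ y → x⁻¹ * y ∈ Subgroup.center Δ := fun x y h =>
    hσ.2.1 (by rw [MonoidHom.mem_ker, map_mul, map_inv, h, inv_mul_cancel])
  have hcomm : ∀ s t, ⁅L s, L t⁆ ∈ σ.ker := fun s t => by
    rw [MonoidHom.mem_ker, map_commutatorElement, hL, hL, commutatorElement_eq_one_iff_commute]
    exact (un_mul s t).trans (((congrArg un (add_comm s t))).trans (un_mul t s).symm)
  letI : CommGroup σ.ker := { (inferInstance : Group σ.ker) with
    mul_comm := fun a b => Subtype.ext (Subgroup.mem_center_iff.1 (hσ.2.1 b.2) a) }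
  let c : F → F → σ.ker := fun s t => ⟨⁅L s, L t⁆, hcomm s t⟩
  have hzc : ∀ s t, ⁅L s, L t⁆ ∈ Subgroup.center Δ := fun s t => hσ.2.1 (hcomm s t)
  have hc := alt_eq_one (p := r) h4 h9 c
    (fun s s' t => Subtype.ext (by
      show ⁅L (s + s'), L t⁆ = ⁅L s, L t⁆ * ⁅L s', L t⁆
      rw [commutator_central (x := L s * L s') (y := L t)
        (hker _ _ (by rw [map_mul, hL, hL, hL, un_mul])) (hker _ _ rfl),
        show ⁅L s * L s', L t⁆ = L s * ⁅L s', L t⁆ * (L s)⁻¹ * ⁅L s, L t⁆ by
          simp only [commutatorElement_def]; group,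
        Subgroup.mem_center_iff.1 (hzc s' t) (L s), mul_inv_cancel_right]
      exact (Subgroup.mem_center_iff.1 (hzc s' t) _).symm))
    (fun s t => Subtype.ext (show ⁅L t, L s⁆ = ⁅L s, L t⁆⁻¹ from (commutatorElement_inv _ _).symm))
    (fun s => Subtype.ext (commutatorElement_self (L s)))
    (fun a ha s t => Subtype.ext (by
      show ⁅L (a ^ 2 * s), L (a ^ 2 * t)⁆ = ⁅L s, L t⁆
      obtain ⟨T, hT⟩ := hσ.1 (tor a ha)
      have hconj : ∀ u, σ (T * L u * T⁻¹) = un (a ^ 2 * u) := fun u => by
        rw [map_mul, map_mul, map_inv, hT, hL, tor_conj, mul_inv_cancel_right]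
      rw [commutator_central (x := T * L s * T⁻¹) (y := T * L t * T⁻¹)
        (hker _ _ (by rw [hconj, hL])) (hker _ _ (by rw [hconj, hL])),
        show ⁅T * L s * T⁻¹, T * L t * T⁻¹⁆ = T * ⁅L s, L t⁆ * T⁻¹ by
          simp only [commutatorElement_def]; group,
        Subgroup.mem_center_iff.1 (hzc s t) T, mul_inv_cancel_right]))
  -- the preimage is abelian
  have habP : commutator (P : Subgroup Δ) = ⊥ := by
    rw [commutator_def, Subgroup.commutator_eq_bot_iff_le_centralizer]
    intro x _
    rw [Subgroup.mem_centralizer_iff]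
    intro y _
    refine Subtype.ext (commutatorElement_eq_one_iff_commute.1 ?_)
    obtain ⟨s, hs⟩ : σ (x : Δ) ∈ (unHom (F := F)).range := hmap ▸ Subgroup.mem_map_of_mem σ x.2
    obtain ⟨t, ht⟩ : σ (y : Δ) ∈ (unHom (F := F)).range := hmap ▸ Subgroup.mem_map_of_mem σ y.2
    rw [commutator_central (x := L (Multiplicative.toAdd t)) (y := L (Multiplicative.toAdd s))
      (hker _ _ (by rw [hL]; exact ht)) (hker _ _ (by rw [hL]; exact hs))]
    exact congrArg Subtype.val (hc _ _)
  obtain ⟨z, hz⟩ := exists_prime_orderOf_dvd_card' r hdvd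
  have hzc' := hσ.2.1 z.2
  obtain ⟨P', hP'⟩ := (IsPGroup.of_card (p := r) (n := 1) (G := Subgroup.zpowers (z : Δ)) (by
    rw [Nat.card_zpowers, Subgroup.orderOf_coe, hz, pow_one])).exists_le_sylow
  obtain ⟨g'', hg''⟩ := MulAction.exists_smul_eq Δ P' P
  have hzP : (z : Δ) ∈ (P : Subgroup Δ) := by
    rw [← hg'', Sylow.coe_subgroup_smul]
    refine ⟨z, hP' (Subgroup.mem_zpowers _), ?_⟩
    show g'' * (z : Δ) * g''⁻¹ = z
    rw [Subgroup.mem_center_iff.1 hzc' g'', mul_inv_cancel_right]
  have h1 := mem_commutator_sylow P hzP hzc' (hσ.2.2 z.2)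
  rw [habP, Subgroup.mem_bot] at h1
  refine hr.ne_one (hz.symm.trans (orderOf_eq_one_iff.2 ?_))
  exact Subtype.ext (congrArg Subtype.val h1 :)

end Main

end Cfsg.Agent.Lib.SchurMult.SLTwo
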